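import Mathlib

/-!
# S4879, the row of the Monster, `p = 11`: the arithmetic certificate (helper591)
-/

set_option autoImplicit false
set_option maxRecDepth 100000

namespace Cfsg.Agent.H591.LB

open scoped BigOperators
open Matrix

/-! ### Candidates for one row -/

/-- all `q + 5 = (a, b, c, d, e)` with entries `< 11`, the two congruences and the norm condition are in the list -/
def candChk (D V : ℕ) (L : List (List ℤ)) : Bool :=
  (List.range 11).all fun a => (List.range 11).all fun b => (List.range 11).all fun c => (List.range 11).all fun e =>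
    (!(Nat.beq ((a + 5 * b + 5 * c + 4 * e) % 11) V)) || (List.range 11).all fun d =>
      (!(Nat.beq ((a + 45 * b + 67 * c + d + 23 * e) % 121) D)) ||
      ((!(Nat.ble (11 * (a * a + b * b + c * c + d * d + e * e) + 4)
        (2 * ((a + b + c + d + e) * (a + b + c + d + e)) + 10 * (a + b + c + d + e)))) ||
      L.contains [(a : ℤ) - 5, (b : ℤ) - 5, (c : ℤ) - 5, (d : ℤ) - 5, (e : ℤ) - 5])

theorem mem_of_candChk {D V : ℕ} {L : List (List ℤ)} (h : candChk D V L = true) {dg vl : ℤ} {q : Fin 5 → ℤ}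
    (hb : ∀ j, -5 ≤ q j ∧ q j ≤ 5) (h1 : (121 : ℤ) ∣ q 0 + 45 * q 1 - 54 * q 2 - 120 * q 3 + 144 * q 4 - dg)
    (h2 : (11 : ℤ) ∣ q 0 + 5 * q 1 - 6 * q 2 + 4 * q 4 - vl) (hD : (121 : ℤ) ∣ D - (dg + 685)) (hD' : D < 121)
    (hV : (11 : ℤ) ∣ V - (vl + 75)) (hV' : V < 11)
    (h3 : 11 * (q 0 ^ 2 + q 1 ^ 2 + q 2 ^ 2 + q 3 ^ 2 + q 4 ^ 2) ≤ 121 + 2 * (q 0 + q 1 + q 2 + q 3 + q 4) ^ 2) :
    [q 0, q 1, q 2, q 3, q 4] ∈ L := by
  obtain ⟨a, ha⟩ : ∃ a : ℕ, (a : ℤ) = q 0 + 5 := ⟨(q 0 + 5).toNat, by have := hb 0; omega⟩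
  obtain ⟨b, hb'⟩ : ∃ a : ℕ, (a : ℤ) = q 1 + 5 := ⟨(q 1 + 5).toNat, by have := hb 1; omega⟩
  obtain ⟨c, hc⟩ : ∃ a : ℕ, (a : ℤ) = q 2 + 5 := ⟨(q 2 + 5).toNat, by have := hb 2; omega⟩
  obtain ⟨d, hd⟩ : ∃ a : ℕ, (a : ℤ) = q 3 + 5 := ⟨(q 3 + 5).toNat, by have := hb 3; omega⟩
  obtain ⟨e, he⟩ : ∃ a : ℕ, (a : ℤ) = q 4 + 5 := ⟨(q 4 + 5).toNat, by have := hb 4; omega⟩
  have la : a < 11 := by have := hb 0; omega
  have lb : b < 11 := by have := hb 1; omega
  have lc : c < 11 := by have := hb 2; omega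
  have ld : d < 11 := by have := hb 3; omega
  have le : e < 11 := by have := hb 4; omega
  have k := List.all_eq_true.1 h a (List.mem_range.2 la)
  have k := List.all_eq_true.1 k b (List.mem_range.2 lb)
  have k := List.all_eq_true.1 k c (List.mem_range.2 lc)
  have k := List.all_eq_true.1 k e (List.mem_range.2 le)
  have e1 : (a + 5 * b + 5 * c + 4 * e) % 11 = V := by omega
  have e2 : (a + 45 * b + 67 * c + d + 23 * e) % 121 = D := by omega
  rw [e1, Nat.beq_refl] at k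
  simp only [Bool.not_true, Bool.false_or] at k
  have k := List.all_eq_true.1 k d (List.mem_range.2 ld)
  rw [e2, Nat.beq_refl] at k
  simp only [Bool.not_true, Bool.false_or] at k
  have e3 : 11 * (a * a + b * b + c * c + d * d + e * e) + 4 ≤
      2 * ((a + b + c + d + e) * (a + b + c + d + e)) + 10 * (a + b + c + d + e) := by
    have q0 : q 0 = a - 5 := by omega
    have q1 : q 1 = b - 5 := by omega
    have q2 : q 2 = c - 5 := by omega
    have q3 : q 3 = d - 5 := by omega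
    have q4 : q 4 = e - 5 := by omega
    rw [q0, q1, q2, q3, q4] at h3
    zify
    nlinarith [h3]
  rw [Nat.ble_eq_true_of_le e3] at k
  simp only [Bool.not_true, Bool.false_or] at k
  have k := List.contains_iff_mem.1 k
  rw [ha, hb', hc, hd, he] at k
  simpa using k

def L0 : List (List ℤ) := [[-2, -1, -3, -1, 1], [0, 3, 0, 2, 0], [1, 1, 1, 1, 1], [2, -1, 2, 0, 2]]
def L1 : List (List ℤ) := [[-1, 0, -1, 0, 0], [0, -2, 0, -1, 1], [2, 2, 3, 2, 0]]
def L2 : List (List ℤ) := [[-4, -1, 0, -2, -2], [0, 2, -1, 1, 0], [1, 0, 0, 0, 1], [4, 2, 4, 2, 1]]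
def L3 : List (List ℤ) := [[-2, 0, -3, -1, 1], [-1, -3, 0, 1, -2], [1, 2, 1, 1, 1], [2, 0, 2, 0, 2]]
def L4 : List (List ℤ) := [[-4, -1, 0, -1, -2], [0, 2, -1, 2, 0], [1, 0, 0, 1, 1], [4, 2, 4, 3, 1]]
def L5 : List (List ℤ) := [[-1, 0, -1, -1, -1], [0, -2, 0, -2, 0], [2, 2, 3, 1, -1]]

theorem chk0 : candChk 96 2 L0 = true := by decide +kernel
theorem chk1 : candChk 12 3 L1 = true := by decide +kernel
theorem chk2 : candChk 104 3 L2 = true := by decide +kernel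
theorem chk3 : candChk 20 7 L3 = true := by decide +kernel
theorem chk4 : candChk 105 3 L4 = true := by decide +kernel
theorem chk5 : candChk 109 10 L5 = true := by decide +kernel
def VS : List (List ℤ) := [[3, -3, 3, -1, -1], [3, -1, -2, 0, 1], [2, -3, 2, -2, 1], [2, -1, 3, 0, -3], [0, 2, -1, -2, 1], [1, 1, 3, -1, -3], [1, 0, 1, 0, -1], [0, 2, 0, 1, -2], [2, -3, 1, -2, 3], [2, 0, -2, 1, 0], [3, -1, -1, -1, 1], [0, 3, -2, -2, 1], [1, -3, 0, -1, 2], [2, -1, 2, 1, -2]]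

/-! ### Tuples -/

/-- the dot product of two vectors of length 5 -/
def dot : List ℤ → List ℤ → ℤ
  | a :: l, b :: m => a * b + dot l m
  | _, _ => 0

/-- the bound `11 (|v|^2 + 2 (sum v)^2)` -/
def bound (v : List ℤ) : ℤ := 11 * (dot v v + 2 * (dot v [1, 1, 1, 1, 1] * dot v [1, 1, 1, 1, 1]))

/-- the sum of the squares of the products with `v` -/
def ssq (v : List ℤ) : List (List ℤ) → ℤ
  | [] => 0
  | q :: l => dot q v * dot q v + ssq v l

def viol (qs : List (List ℤ)) : Bool := VS.any fun v => decide (bound v < ssq v ([1, 0, 0, 0, 0] :: qs))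

structure Entry where
  t : List (List ℤ)
  R : List (List ℤ)
  A : List (List ℤ)
  d : ℤ
  W : List (List ℤ)

def table : List Entry := [
  ⟨[[-2, -1, -3, -1, 1], [-1, 0, -1, 0, 0], [1, 0, 0, 0, 1], [1, 2, 1, 1, 1], [1, 0, 0, 1, 1], [-1, 0, -1, -1, -1]],
   [[23, 18, 13, 17, 20], [18, 28, 17, 19, 21], [13, 17, 21, 17, 23], [17, 19, 17, 29, 20], [20, 21, 23, 20, 28]],
   [[9521, -1353, 15875, -2005, -17394], [-1353, 1910, -1922, -195, 1252], [15875, -1922, 35666, -3791, -36487], [-2005, -195, -3791, 1864, 3361], [-17394, 1252, -36487, 3361, 39736]],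
   19039, [[71477, -70387, -234207], [-70387, 76937, 250225], [-234207, 250225, 824260]]⟩,
  ⟨[[-2, -1, -3, -1, 1], [-1, 0, -1, 0, 0], [1, 0, 0, 0, 1], [1, 2, 1, 1, 1], [1, 0, 0, 1, 1], [0, -2, 0, -2, 0]],
   [[24, 18, 14, 18, 21], [18, 24, 17, 15, 21], [14, 17, 22, 18, 24], [18, 15, 18, 26, 21], [21, 21, 24, 21, 29]],
   [[5741, -1466, 9411, -2055, -9396], [-1466, 1388, -2226, 534, 1512], [9411, -2226, 19665, -3609, -18864], [-2055, 534, -3609, 1569, 2952], [-9396, 1512, -18864, 2952, 19488]],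
   8844, [[35012, -36844, -118036], [-36844, 44228, 136436], [-118036, 136436, 429140]]⟩,
  ⟨[[-2, -1, -3, -1, 1], [0, -2, 0, -1, 1], [0, 2, -1, 1, 0], [1, 2, 1, 1, 1], [1, 0, 0, 1, 1], [-1, 0, -1, -1, -1]],
   [[25, 18, 14, 17, 21], [18, 20, 19, 15, 23], [14, 19, 21, 18, 23], [17, 15, 18, 27, 21], [21, 23, 23, 21, 28]],
   [[405, -918, 771, -280, 27], [-918, 2404, -1788, 702, -344], [771, -1788, 1571, -548, 11], [-280, 702, -548, 226, -86], [27, -344, 11, -86, 325]],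
   202, [[2310, -5430, 1694], [-5430, 14523, -8022], [1694, -8022, 11248]]⟩,
  ⟨[[-2, -1, -3, -1, 1], [0, -2, 0, -1, 1], [1, 0, 0, 0, 1], [1, 2, 1, 1, 1], [1, 0, 0, 1, 1], [-1, 0, -1, -1, -1]],
   [[24, 18, 14, 17, 20], [18, 24, 17, 17, 23], [14, 17, 22, 17, 23], [17, 17, 17, 28, 21], [20, 23, 23, 21, 27]],
   [[969, 1662, 3102, 243, -4965], [1662, 3939, 6558, 594, -10635], [3102, 6558, 11949, 1026, -18861], [243, 594, 1026, 216, -1728], [-4965, -10635, -18861, -1728, 30201]],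
   1431, [[67758, -79749, -162942], [-79749, 94545, 191511], [-162942, 191511, 395061]]⟩,
  ⟨[[0, 3, 0, 2, 0], [-1, 0, -1, 0, 0], [1, 0, 0, 0, 1], [1, 2, 1, 1, 1], [1, 0, 0, 1, 1], [-1, 0, -1, -1, -1]],
   [[27, 20, 19, 19, 18], [20, 20, 20, 14, 20], [19, 20, 30, 20, 20], [19, 14, 20, 26, 19], [18, 20, 20, 19, 29]],
   [[17680, -28880, 9016, -12080, 10640], [-28880, 56507, -18954, 21266, -21906], [9016, -18954, 9116, -8180, 6548], [-12080, 21266, -8180, 11620, -9140], [10640, -21906, 6548, -9140, 11116]],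
   33064, [[79520, 50840, 240084], [50840, 44828, 184022], [240084, 184022, 810235]]⟩,
  ⟨[[1, 1, 1, 1, 1], [-1, 0, -1, 0, 0], [0, 2, -1, 1, 0], [1, 2, 1, 1, 1], [1, 0, 0, 1, 1], [-1, 0, -1, -1, -1]],
   [[27, 19, 18, 18, 18], [19, 24, 21, 17, 19], [18, 21, 28, 20, 19], [18, 17, 20, 28, 18], [18, 19, 19, 18, 29]],
   [[38385, -20270, 990, -9785, -5120], [-20270, 69552, -31158, 1899, -13752], [990, -31158, 50677, -15476, -3797], [-9785, 1899, -15476, 34748, -6599], [-5120, -13752, -3797, -6599, 32592]],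
   400795, [[163538, 11814, 17978], [11814, 91042, -5436], [17978, -5436, 19818]]⟩,
  ⟨[[1, 1, 1, 1, 1], [-1, 0, -1, 0, 0], [0, 2, -1, 1, 0], [2, 0, 2, 0, 2], [1, 0, 0, 1, 1], [-1, 0, -1, -1, -1]],
   [[24, 21, 15, 19, 15], [21, 28, 23, 19, 21], [15, 23, 25, 21, 16], [19, 19, 21, 29, 19], [15, 21, 16, 19, 26]],
   [[13529, -23184, 18082, -12725, 9092], [-23184, 40733, -31820, 22077, -16076], [18082, -31820, 25249, -17472, 12499], [-12725, 22077, -17472, 12432, -8823], [9092, -16076, 12499, -8823, 6636]],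
   3667, [[543634, -201672, 30503], [-201672, 74942, -11332], [30503, -11332, 1879]]⟩,
  ⟨[[1, 1, 1, 1, 1], [-1, 0, -1, 0, 0], [1, 0, 0, 0, 1], [-1, -3, 0, 1, -2], [1, 0, 0, 1, 1], [-1, 0, -1, -1, -1]],
   [[26, 18, 19, 20, 16], [18, 23, 21, 24, 15], [19, 21, 30, 20, 20], [20, 24, 20, 29, 21], [16, 15, 20, 21, 25]],
   [[6, 396, -177, -351, 195], [396, 39156, -17436, -34611, 19275], [-177, -17436, 7766, 15412, -8584], [-351, -34611, 15412, 30596, -17039], [195, 19275, -8584, -17039, 9491]],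
   21, [[788325, -76458, -30423], [-76458, 7418, 2950], [-30423, 2950, 1175]]⟩,
  ⟨[[1, 1, 1, 1, 1], [-1, 0, -1, 0, 0], [1, 0, 0, 0, 1], [-1, -3, 0, 1, -2], [1, 0, 0, 1, 1], [0, -2, 0, -2, 0]],
   [[27, 18, 20, 21, 17], [18, 19, 21, 20, 15], [20, 21, 31, 21, 21], [21, 20, 21, 26, 22], [17, 15, 21, 22, 26]],
   [[1339, -304, -221, -802, 157], [-304, 21952, -9808, -17160, 9976], [-221, -9808, 5435, 7526, -4955], [-802, -17160, 7526, 16044, -9230], [157, 9976, -4955, -9230, 6419]],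
   12088, [[435364, -43612, -21238], [-43612, 6332, 1854], [-21238, 1854, 1547]]⟩,
  ⟨[[1, 1, 1, 1, 1], [-1, 0, -1, 0, 0], [1, 0, 0, 0, 1], [1, 2, 1, 1, 1], [0, 2, -1, 2, 0], [-1, 0, -1, -1, -1]],
   [[27, 19, 18, 19, 18], [19, 24, 21, 15, 19], [18, 21, 28, 21, 19], [19, 15, 21, 26, 19], [18, 19, 19, 19, 29]],
   [[25249, -18821, 8740, -15399, 1022], [-18821, 46790, -28908, 19441, -12771], [8740, -28908, 38741, -23652, 3629], [-15399, 19441, -23652, 34748, -10449], [1022, -12771, 3629, -10449, 19348]],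
   207259, [[575682, -206642, -5228], [-206642, 81470, 659], [-5228, 659, 10540]]⟩,
  ⟨[[1, 1, 1, 1, 1], [-1, 0, -1, 0, 0], [1, 0, 0, 0, 1], [1, 2, 1, 1, 1], [1, 0, 0, 1, 1], [-1, 0, -1, -1, -1]],
   [[26, 19, 18, 18, 17], [19, 28, 19, 19, 19], [18, 19, 29, 19, 19], [18, 19, 19, 29, 18], [17, 19, 19, 18, 28]],
   [[76049, -24681, -14608, -15559, -9510], [-24681, 77450, -13129, -15029, -19000], [-14608, -13129, 67089, -15082, -18051], [-15559, -15029, -15082, 64148, -11359], [-9510, -19000, -18051, -11359, 66920]],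
   803659, [[272482, -38302, 29132], [-38302, 113922, -17910], [29132, -17910, 39640]]⟩,
  ⟨[[1, 1, 1, 1, 1], [-1, 0, -1, 0, 0], [1, 0, 0, 0, 1], [1, 2, 1, 1, 1], [1, 0, 0, 1, 1], [0, -2, 0, -2, 0]],
   [[27, 19, 19, 19, 18], [19, 24, 19, 15, 19], [19, 19, 30, 20, 20], [19, 15, 20, 26, 19], [18, 19, 20, 19, 29]],
   [[46937, -23917, -2128, -19375, 698], [-23917, 56507, -14965, 9695, -18208], [-2128, -14965, 38741, -15766, -5263], [-19375, 9695, -15766, 47264, -14419], [698, -18208, -5263, -14419, 38948]],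
   416883, [[151922, -3658, 21058], [-3658, 81422, -2834], [21058, -2834, 21101]]⟩,
  ⟨[[1, 1, 1, 1, 1], [-1, 0, -1, 0, 0], [1, 0, 0, 0, 1], [2, 0, 2, 0, 2], [1, 0, 0, 1, 1], [-1, 0, -1, -1, -1]],
   [[23, 21, 15, 19, 14], [21, 32, 21, 21, 21], [15, 21, 26, 20, 16], [19, 21, 20, 30, 19], [14, 21, 16, 19, 25]],
   [[48665, -26439, 3708, -19451, 7366], [-26439, 47711, -16191, 6909, -20160], [3708, -16191, 36221, -14998, -259], [-19451, 6909, -14998, 38472, -14551], [7366, -20160, -259, -14551, 38164]],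
   353251, [[641170, -226160, 58839], [-226160, 92302, -22330], [58839, -22330, 21101]]⟩,
  ⟨[[1, 1, 1, 1, 1], [0, -2, 0, -1, 1], [0, 2, -1, 1, 0], [1, 2, 1, 1, 1], [1, 0, 0, 1, 1], [-1, 0, -1, -1, -1]],
   [[28, 19, 19, 18, 18], [19, 20, 21, 15, 21], [19, 21, 29, 20, 19], [18, 15, 20, 27, 19], [18, 21, 19, 19, 28]],
   [[4793, -15949, 6632, -4459, 7406], [-15949, 63629, -27439, 16982, -30373], [6632, -27439, 12725, -7672, 12887], [-4459, 16982, -7672, 5516, -8407], [7406, -30373, 12887, -8407, 15344]],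
   10227, [[111746, -230026, 9256], [-230026, 481610, -18803], [9256, -18803, 1223]]⟩,
  ⟨[[1, 1, 1, 1, 1], [0, -2, 0, -1, 1], [1, 0, 0, 0, 1], [-2, 0, -3, -1, 1], [1, 0, 0, 1, 1], [-1, 0, -1, -1, -1]],
   [[24, 21, 14, 17, 20], [21, 28, 21, 19, 23], [14, 21, 22, 17, 23], [17, 19, 17, 28, 21], [20, 23, 23, 21, 27]],
   [[5417, -4195, 9452, 449, -8840], [-4195, 3939, -7760, -447, 6710], [9452, -7760, 18942, 1012, -17314], [449, -447, 1012, 499, -1202], [-8840, 6710, -17314, -1202, 16704]],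
   5074, [[323302, 11830, -18184], [11830, 6735, -747], [-18184, -747, 1231]]⟩,
  ⟨[[1, 1, 1, 1, 1], [0, -2, 0, -1, 1], [1, 0, 0, 0, 1], [1, 2, 1, 1, 1], [1, 0, 0, 1, 1], [-1, 0, -1, -1, -1]],
   [[27, 19, 19, 18, 17], [19, 24, 19, 17, 21], [19, 19, 30, 19, 19], [18, 17, 19, 28, 19], [17, 21, 19, 19, 27]],
   [[37393, -21500, -7182, -9401, 4848], [-21500, 70091, -9310, 1808, -35699], [-7182, -9310, 30633, -7410, -4579], [-9401, 1808, -7410, 32284, -12991], [4848, -35699, -4579, -12991, 51072]],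
   377851, [[210786, -276678, 17090], [-276678, 539730, -12419], [17090, -12419, 18641]]⟩,
  ⟨[[1, 1, 1, 1, 1], [2, 2, 3, 2, 0], [0, 2, -1, 1, 0], [1, 2, 1, 1, 1], [1, 0, 0, 1, 1], [-1, 0, -1, -1, -1]],
   [[24, 15, 13, 14, 18], [15, 20, 15, 13, 19], [13, 15, 20, 14, 19], [14, 13, 14, 24, 18], [18, 19, 19, 18, 29]],
   [[17801, -7218, 571, -3343, -4619], [-7218, 32368, -9854, 241, -10420], [571, -9854, 30552, -4455, -11150], [-3343, 241, -4455, 16794, -5588], [-4619, -10420, -11150, -5588, 27241]],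
   196433, [[110679, 122813, 19090], [122813, 295404, 40908], [19090, 40908, 13086]]⟩,
  ⟨[[1, 1, 1, 1, 1], [2, 2, 3, 2, 0], [0, 2, -1, 1, 0], [1, 2, 1, 1, 1], [1, 0, 0, 1, 1], [0, -2, 0, -2, 0]],
   [[25, 15, 14, 15, 19], [15, 16, 15, 9, 19], [14, 15, 21, 15, 20], [15, 9, 15, 21, 19], [19, 19, 20, 19, 30]],
   [[2961, -7068, 2891, -4123, 3285], [-7068, 22675, -9468, 12473, -11472], [2891, -9468, 5240, -5523, 4170], [-4123, 12473, -5523, 8030, -6692], [3285, -11472, 4170, -6692, 6945]],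
   9049, [[38539, 39245, 9536], [39245, 46880, 10432], [9536, 10432, 2797]]⟩,
  ⟨[[1, 1, 1, 1, 1], [2, 2, 3, 2, 0], [0, 2, -1, 1, 0], [2, 0, 2, 0, 2], [1, 0, 0, 1, 1], [-1, 0, -1, -1, -1]],
   [[21, 17, 10, 15, 15], [17, 24, 17, 15, 21], [10, 17, 17, 15, 16], [15, 15, 15, 25, 19], [15, 21, 16, 19, 26]],
   [[7481, -9456, 6931, -5075, 2765], [-9456, 19343, -13768, 8135, -7640], [6931, -13768, 14840, -7363, 3370], [-5075, 8135, -7363, 7078, -4284], [2765, -7640, 3370, -4284, 6825]],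
   31009, [[241495, 39231, 15857], [39231, 47600, 7532], [15857, 7532, 2797]]⟩,
  ⟨[[1, 1, 1, 1, 1], [2, 2, 3, 2, 0], [1, 0, 0, 0, 1], [1, 2, 1, 1, 1], [0, 2, -1, 2, 0], [-1, 0, -1, -1, -1]],
   [[24, 15, 13, 15, 18], [15, 20, 15, 11, 19], [13, 15, 20, 15, 19], [15, 11, 15, 22, 19], [18, 19, 19, 19, 29]],
   [[11561, -6743, 2295, -5517, -647], [-6743, 22328, -9207, 8109, -9724], [2295, -9207, 20088, -7533, -3618], [-5517, 8109, -7533, 16794, -7956], [-647, -9724, -3618, -7956, 18209]],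
   111753, [[231011, 10041, -1685], [10041, 176976, 25293], [-1685, 25293, 7898]]⟩,
  ⟨[[1, 1, 1, 1, 1], [2, 2, 3, 2, 0], [1, 0, 0, 0, 1], [1, 2, 1, 1, 1], [1, 0, 0, 1, 1], [-1, 0, -1, -1, -1]],
   [[23, 15, 13, 14, 17], [15, 24, 13, 15, 19], [13, 13, 21, 13, 19], [14, 15, 13, 25, 18], [17, 19, 19, 18, 28]],
   [[31913, -8596, -5145, -5215, -6699], [-8596, 35679, 1617, -5530, -16534], [-5145, 1617, 44408, -1757, -26978], [-5215, -5530, -1757, 28602, -10276], [-6699, -16534, -26978, -10276, 52745]],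
   351281, [[180831, 239337, 31675], [239337, 566300, 73871], [31675, 73871, 23121]]⟩,
  ⟨[[1, 1, 1, 1, 1], [2, 2, 3, 2, 0], [1, 0, 0, 0, 1], [1, 2, 1, 1, 1], [1, 0, 0, 1, 1], [0, -2, 0, -2, 0]],
   [[24, 15, 14, 15, 18], [15, 20, 13, 11, 19], [14, 13, 22, 14, 20], [15, 11, 14, 22, 19], [18, 19, 20, 19, 29]],
   [[16497, -8298, -2577, -6555, 1269], [-8298, 25982, 1209, 6612, -17038], [-2577, 1209, 20088, -837, -12498], [-6555, 6612, -837, 20022, -12804], [1269, -17038, -12498, -12804, 32897]],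
   159897, [[107003, 155849, 22655], [155849, 338408, 46637], [22655, 46637, 12452]]⟩,
  ⟨[[1, 1, 1, 1, 1], [2, 2, 3, 2, 0], [1, 0, 0, 0, 1], [2, 0, 2, 0, 2], [1, 0, 0, 1, 1], [-1, 0, -1, -1, -1]],
   [[20, 17, 10, 15, 14], [17, 28, 15, 17, 21], [10, 15, 18, 14, 16], [15, 17, 14, 26, 19], [14, 21, 16, 19, 25]],
   [[21593, -10322, 927, -7363, 1581], [-10322, 22658, -3753, 2452, -12714], [927, -3753, 24408, -3897, -10026], [-7363, 2452, -3897, 18518, -9516], [1581, -12714, -10026, -9516, 30537]],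
   177345, [[270767, 53851, 27818], [53851, 268208, 32839], [27818, 32839, 12452]]⟩,
  ⟨[[1, 1, 1, 1, 1], [2, 2, 3, 2, 0], [1, 0, 0, 0, 1], [2, 0, 2, 0, 2], [1, 0, 0, 1, 1], [0, -2, 0, -2, 0]],
   [[21, 17, 11, 16, 15], [17, 24, 15, 13, 21], [11, 15, 19, 15, 17], [16, 13, 15, 23, 20], [15, 21, 17, 20, 26]],
   [[7553, -9836, 2679, -9175, 8893], [-9836, 14257, -3893, 12650, -13026], [2679, -3893, 2072, -3705, 3094], [-9175, 12650, -3705, 12530, -12140], [8893, -13026, 3094, -12140, 12993]],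
   7465, [[209203, -81161, 376], [-81161, 46092, 1593], [376, 1593, 487]]⟩,
  ⟨[[2, -1, 2, 0, 2], [2, 2, 3, 2, 0], [1, 0, 0, 0, 1], [1, 2, 1, 1, 1], [1, 0, 0, 1, 1], [-1, 0, -1, -1, -1]],
   [[20, 18, 10, 15, 14], [18, 24, 16, 16, 22], [10, 16, 18, 14, 16], [15, 16, 14, 26, 19], [14, 22, 16, 19, 25]],
   [[8720, -12640, 3040, -4560, 7760], [-12640, 22658, -5588, 7068, -14656], [3040, -5588, 3728, -2088, 2416], [-4560, 7068, -2088, 4008, -5376], [7760, -14656, 2416, -5376, 11792]],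
   17520, [[36248, 28888, -101216], [28888, 38408, -63856], [-101216, -63856, 356882]]⟩,
  ⟨[[1, 1, 1, 1, 1], [-1, 0, -1, 0, 0], [0, 2, -1, 1, 0], [1, 2, 1, 1, 1], [1, 0, 0, 1, 1], [0, -2, 0, -2, 0]],
   [[28, 19, 19, 19, 19], [19, 20, 21, 13, 19], [19, 21, 29, 21, 20], [19, 13, 21, 25, 19], [19, 19, 20, 19, 30]],
   [[8529, -20292, 13642, -11837, 5852], [-20292, 47689, -32016, 27923, -13692], [13642, -32016, 21369, -18676, 9219], [-11837, 27923, -18676, 16184, -7987], [5852, -13692, 9219, -7987, 3836]],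
   -1253, [[38706, 47434, 8656], [47434, 57182, 10568], [8656, 10568, 1879]]⟩,
  ⟨[[1, 1, 1, 1, 1], [-1, 0, -1, 0, 0], [1, 0, 0, 0, 1], [2, 0, 2, 0, 2], [1, 0, 0, 1, 1], [0, -2, 0, -2, 0]],
   [[24, 21, 16, 20, 15], [21, 28, 21, 17, 21], [16, 21, 27, 21, 17], [20, 17, 21, 27, 20], [15, 21, 17, 20, 26]],
   [[21217, -25319, 15316, -24059, 16702], [-25319, 29008, -17507, 28273, -19124], [15316, -17507, 9793, -16562, 11641], [-24059, 28273, -16562, 26068, -18179], [16702, -19124, 11641, -18179, 11872]],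
   -8085, [[596722, -192248, 20447], [-192248, 61642, -6538], [20447, -6538, 322]]⟩,
  ⟨[[1, 1, 1, 1, 1], [0, -2, 0, -1, 1], [1, 0, 0, 0, 1], [-1, -3, 0, 1, -2], [1, 0, 0, 1, 1], [-1, 0, -1, -1, -1]],
   [[27, 18, 20, 20, 16], [18, 19, 21, 22, 17], [20, 21, 31, 20, 20], [20, 22, 20, 28, 22], [16, 17, 20, 22, 24]],
   [[-1148, -352, 592, 944, -344], [-352, 27628, -10668, -20122, 8000], [592, -10668, 3072, 7682, -2440], [944, -20122, 7682, 12659, -4382], [-344, 8000, -2440, -4382, 108]],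
   -12116, [[388300, 116516, -15976], [116516, 19555, -4811], [-15976, -4811, 139]]⟩,
  ⟨[[1, 1, 1, 1, 1], [0, -2, 0, -1, 1], [1, 0, 0, 0, 1], [-1, -3, 0, 1, -2], [1, 0, 0, 1, 1], [0, -2, 0, -2, 0]],
   [[28, 18, 21, 21, 17], [18, 15, 21, 18, 17], [21, 21, 32, 21, 21], [21, 18, 21, 25, 23], [17, 17, 21, 23, 25]],
   [[-503, -1726, 882, 1377, -492], [-1726, 9880, -3570, -2101, -613], [882, -3570, 761, 630, 609], [1377, -2101, 630, -2489, 2253], [-492, -613, 609, 2253, -2076]],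
   -6077, [[45391, 62542, -4191], [62542, 24497, -3729], [-4191, -3729, 71]]⟩,
  ⟨[[1, 1, 1, 1, 1], [0, -2, 0, -1, 1], [1, 0, 0, 0, 1], [1, 2, 1, 1, 1], [1, 0, 0, 1, 1], [0, -2, 0, -2, 0]],
   [[28, 19, 20, 19, 18], [19, 20, 19, 13, 21], [20, 19, 31, 20, 20], [19, 13, 20, 25, 20], [18, 21, 20, 20, 28]],
   [[8193, -21374, 5606, -11677, 15100], [-21374, 48432, -11908, 27646, -33825], [5606, -11908, 1757, -6374, 8625], [-11677, 27646, -6374, 13888, -18595], [15100, -33825, 8625, -18595, 22260]],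
   -14645, [[81762, -208330, 11496], [-208330, 512950, -29265], [11496, -29265, 978]]⟩,
  ⟨[[1, 1, 1, 1, 1], [0, -2, 0, -1, 1], [4, 2, 4, 2, 1], [1, 2, 1, 1, 1], [1, 0, 0, 1, 1], [-1, 0, -1, -1, -1]],
   [[12, 11, 3, 10, 14], [11, 20, 11, 13, 19], [3, 11, 14, 11, 15], [10, 13, 11, 24, 17], [14, 19, 15, 17, 27]],
   [[12857, -2649, 11681, -2306, -9840], [-2649, 449, -2401, 482, 2088], [11681, -2401, 10497, -2082, -8888], [-2306, 482, -2082, 364, 1784], [-9840, 2088, -8888, 1784, 7424]],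
   -632, [[28312, -2824, 14488], [-2824, -408, -1612], [14488, -1612, 7329]]⟩,
  ⟨[[1, 1, 1, 1, 1], [2, 2, 3, 2, 0], [0, 2, -1, 1, 0], [1, 2, 1, 1, 1], [-4, -1, 0, -1, -2], [-1, 0, -1, -1, -1]],
   [[9, 11, 13, 11, 11], [11, 19, 15, 12, 17], [13, 15, 20, 14, 19], [11, 12, 14, 24, 17], [11, 17, 19, 17, 26]],
   [[13481, -3318, -8850, -2673, 4681], [-3318, -380, 2677, 679, -748], [-8850, 2677, 4229, 1914, -2348], [-2673, 679, 1914, -122, -632], [4681, -748, -2348, -632, 325]],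
   -8131, [[364008, -57578, 16444], [-57578, -3627, -4340], [16444, -4340, 297]]⟩,
  ⟨[[2, -1, 2, 0, 2], [-1, 0, -1, 0, 0], [1, 0, 0, 0, 1], [1, 2, 1, 1, 1], [1, 0, 0, 1, 1], [-1, 0, -1, -1, -1]],
   [[23, 22, 15, 19, 14], [22, 28, 22, 20, 22], [15, 22, 26, 20, 16], [19, 20, 20, 30, 19], [14, 22, 16, 19, 25]],
   [[21236, -31918, 13652, -11560, 16244], [-31918, 47711, -20380, 17360, -24262], [13652, -20380, 8600, -7372, 10388], [-11560, 17360, -7372, 6188, -8788], [16244, -24262, 10388, -8788, 12236]],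
   -1212, [[38792, 47456, -181820], [47456, 57140, -219842], [-181820, -219842, 844511]]⟩]

def tupChk : Bool :=
  L0.all fun a => L1.all fun d => L2.all fun c => viol [a, d, c] || L3.all fun e => viol [a, d, c, e] || L4.all fun g =>
    viol [a, d, c, e, g] || L5.all fun h => viol [a, d, c, e, g, h] || table.any fun E => E.t == [a, d, c, e, g, h]

theorem tupChk_true : tupChk = true := by decide +kernel


/-! ### Determinants -/

/-- Laplace expansion -/
def ldet : (n : ℕ) → Matrix (Fin n) (Fin n) ℤ → ℤ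
  | 0, _ => 1
  | n + 1, M => ∑ j : Fin (n + 1), (-1) ^ (j : ℕ) * M 0 j * ldet n (M.submatrix Fin.succ j.succAbove)

theorem ldet_eq (n : ℕ) (M : Matrix (Fin n) (Fin n) ℤ) : ldet n M = M.det := by
  induction n with
  | zero => simp [ldet]
  | succ n ih =>
    rw [ldet, Matrix.det_succ_row_zero]
    exact Finset.sum_congr rfl fun j _ => by rw [ih]

/-- the matrix of a list of lists -/
def mat (m n : ℕ) (l : List (List ℤ)) : Matrix (Fin m) (Fin n) ℤ := fun i j => (l.getD i []).getD j 0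

/-- the signs at the elements of order 17 -/
def sg : List (List ℤ) := [[1, 0, 0, 0, 1, -1, 0], [0, 0, 1, 0, 0, 0, 0], [0, 1, 0, 0, 0, 0, 0]]

/-- the Gram matrix of the rest -/
def Rm (t : List (List ℤ)) : Matrix (Fin 5) (Fin 5) ℤ := fun i j =>
  (if i = j then 33 else 22) - ∑ x : Fin 7, mat 7 5 ([1, 0, 0, 0, 0] :: t) x i * mat 7 5 ([1, 0, 0, 0, 0] :: t) x j

/-- the products with the sign vectors, on the rest -/
def Bm (t : List (List ℤ)) : Matrix (Fin 5) (Fin 3) ℤ := fun i u =>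
  -∑ x : Fin 7, mat 3 7 sg u x * mat 7 5 ([1, 0, 0, 0, 0] :: t) x i

/-- not a square modulo a small number -/
def nonsq (v : ℤ) : Bool :=
  [16, 9, 5, 7, 11, 13, 17, 19, 23, 29, 31, 37, 41, 43, 47].any fun m : ℕ =>
    (List.range m).all fun r => !(Nat.beq ((r * r) % m) (v % (m : ℤ)).toNat)

theorem not_sq {v : ℤ} (h : nonsq v = true) (y : ℤ) : v ≠ y ^ 2 := by
  rintro rfl
  obtain ⟨m, hm, h⟩ := List.any_eq_true.1 h
  have hm0 : 0 < m := by
    simp only [List.mem_cons, List.not_mem_nil, or_false] at hm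
    omega
  have hm' : (0 : ℤ) < m := by exact_mod_cast hm0
  have h1 := Int.emod_nonneg y hm'.ne'
  have h2 := Int.emod_lt_of_pos y hm'
  have h := List.all_eq_true.1 h (y % m).toNat (List.mem_range.2 (by omega))
  have h := Nat.ne_of_beq_eq_false (by simpa using h)
  refine h ?_
  have h3 : (((y % m).toNat * (y % m).toNat % m : ℕ) : ℤ) = y ^ 2 % m := by
    push_cast
    rw [Int.toNat_of_nonneg h1, pow_two, ← Int.mul_emod]
  have h4 : (((y ^ 2 % (m : ℤ)).toNat : ℕ) : ℤ) = y ^ 2 % m := Int.toNat_of_nonneg (Int.emod_nonneg _ hm'.ne')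
  omega

/-- the determinant of `d diag(n) - W` -/
def det3 (d : ℤ) (W : List (List ℤ)) (n0 n1 n2 : ℤ) : ℤ :=
  let w := fun i j : ℕ => (W.getD i []).getD j 0
  let a := d * n0 - w 0 0
  let b := d * n1 - w 1 1
  let c := d * n2 - w 2 2
  a * b * c - a * w 1 2 * w 2 1 - w 0 1 * w 1 0 * c - w 0 1 * w 1 2 * w 2 0 - w 0 2 * w 1 0 * w 2 1 - w 0 2 * b * w 2 0

def entChk (E : Entry) : Bool :=
  (decide (Rm E.t = mat 5 5 E.R)) && (decide (mat 5 5 E.R * mat 5 5 E.A = E.d • 1)) && (decide (E.d ≠ 0)) &&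
  (decide (ldet 5 (mat 5 5 E.R) = E.d)) && (decide ((Bm E.t)ᵀ * mat 5 5 E.A * Bm E.t = mat 3 3 E.W)) &&
  ((List.range 8).all fun a => (List.range 8).all fun b => (List.range 8).all fun c =>
    (Nat.blt 5 (a + b + c)) || nonsq (det3 E.d E.W (a + 1) (b + 1) (c + 1)))

theorem entChk_true : (table.all entChk) = true := by decide +kernel

end Cfsg.Agent.H591.LB
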